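import Cfsg.Agent.E82.U4.Nine

/-!
# S3369, row `U₄(2)`: the factor `A₂` of the centraliser of `z` (helper39)

* `Phi` : the matrix model; `Ac g A A'` : `g` acts as conjugation by `A`; `ac_cent` : every element of the centraliser does;
* `a2_triv` : a rational four-group which is normalised by `diag (ζ, ζ, 1)` acts trivially.
-/

set_option autoImplicit false
set_option linter.unusedSectionVars false
set_option maxRecDepth 100000

namespace Cfsg.Agent.E82.U4

open Module Cfsg Cfsg.Lie Cfsg.Lie.ChevalleyDatum Matrix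
open Cfsg.Agent.Tits.Roots Cfsg.Agent.Nodes.RGDChev
open Cfsg.Agent.BpExc.RowsUntw (e8T)
open Cfsg.Agent.KFacts.RgdChevCoord (TT)
open Cfsg.Agent.H129.TorusChar (cX isMC_cX)
open Cfsg.Agent.ChevalleyStructure.Columns (car cor)
open Cfsg.Agent.H939.L64 (KK E2 LK aK brK)
open Cfsg.Agent.H413.L16
open Cfsg.Agent.H876.L64 (two_zero aK_mul aK_one aK_add aK_smul aK_zero)
open Cfsg.Agent.H259.L34 (dz)
open Cfsg.Agent.H201.L34 (Fz Fz_add Fz_smul Fz_er Fz_hr Fz_zero)
open Cfsg.Agent.H942.L16 (BF BF_aK BF_symm BF_hr_hr BF_er_er ipr bar bsr bzr kadd_self ladd_self)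
open Cfsg.Agent.E82.Fr

/-- matrices -/
abbrev M3 : Type := Matrix (Fin 3) (Fin 3) KK

/-- the roots of `A₂` -/
def rt : Fin 3 → Fin 3 → ℕ := ![![214, 135, 219], ![104, 219, 214], ![20, 25, 135]]

/-- the images of the matrix units -/
noncomputable def bs (i j : Fin 3) : LK := if i = j then hr (rt i j) else er (rt i j)

/-- the matrix model -/
noncomputable def Phi : M3 →ₗ[KK] LK where
  toFun X := ∑ i, ∑ j, X i j • bs i j
  map_add' X Y := by simp only [Matrix.add_apply, add_smul, Finset.sum_add_distrib]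
  map_smul' c X := by simp only [Matrix.smul_apply, smul_eq_mul, mul_smul, RingHom.id_apply, Finset.smul_sum]

theorem Phi_single (i j : Fin 3) (x : KK) : Phi (single i j x) = x • bs i j := by
  show ∑ a, ∑ b, single i j x a b • bs a b = _
  rw [Finset.sum_eq_single i, Finset.sum_eq_single j, single_apply_same]
  · intro b _ hb
    rw [single_apply_of_ne _ _ _ _ _ fun h => hb h.2.symm, zero_smul]
  · intro h; exact absurd (Finset.mem_univ j) h
  · intro a _ ha
    exact Finset.sum_eq_zero fun b _ => by rw [single_apply_of_ne _ _ _ _ _ fun h => ha h.1.symm, zero_smul]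
  · intro h; exact absurd (Finset.mem_univ i) h

theorem rt_lt : ∀ i j, rt i j < 240 := by decide

theorem rt_neg : ∀ i j, i ≠ j → rt j i = 239 - rt i j := by decide

theorem rt_spec : ∀ p q i j : Fin 3, p ≠ q → (ipr (rt i i) (rt p q) % 2 = 0 ↔ ¬ (q = i ∨ i = p)) ∧
    (i ≠ j → (rt i j = 239 - rt p q ↔ i = q ∧ j = p) ∧ (¬ (i = q ∧ j = p) →
      tg (rt p q) (rt i j) = if q = i then rt p j else if j = p then rt i q else 240)) ∧
    (∀ k : Fin 8, (cor chevE8 (rt p q) k - (cor chevE8 (rt p p) k + cor chevE8 (rt q q) k)) % 2 = 0) := by decide +kernel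

theorem bs_of_ne {i j : Fin 3} (h : i ≠ j) : bs i j = er (rt i j) := if_neg h

theorem bs_self (i : Fin 3) : bs i i = hr (rt i i) := if_pos rfl

theorem br_bs {p q : Fin 3} (h : p ≠ q) (i j : Fin 3) :
    brK (er (rt p q)) (bs i j) = (if q = i then bs p j else 0) + if j = p then bs i q else 0 := by
  obtain ⟨h1, h2, h3⟩ := rt_spec p q i j h
  by_cases e : i = j
  · subst e
    rw [bs_self, br_comm, hr, br_hv' _ (rt_lt p q), ← hr, BF_hr_hr]
    by_cases e1 : q = i
    · subst e1
      rw [cast_odd (mt h1.1 (not_not.2 (Or.inl rfl))), one_smul, if_pos rfl, if_neg h.symm, add_zero, bs_of_ne h]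
    · by_cases e2 : i = p
      · subst e2
        rw [cast_odd (mt h1.1 (not_not.2 (Or.inr rfl))), one_smul, if_neg e1, if_pos rfl, zero_add, bs_of_ne h]
      · rw [cast_even (h1.2 (not_or.2 ⟨e1, e2⟩)), zero_smul, if_neg e1, if_neg e2, add_zero]
  · obtain ⟨h4, h5⟩ := h2 e
    rw [bs_of_ne e]
    by_cases e1 : i = q ∧ j = p
    · obtain ⟨rfl, rfl⟩ := e1
      rw [h4.2 ⟨rfl, rfl⟩, br_neg (rt_lt _ _), if_pos rfl, if_pos rfl, bs_self, bs_self, hr_add h3]
    · rw [br_rr (rt_lt p q) (rt_lt i j) (mt h4.1 e1), h5 e1]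
      by_cases e2 : q = i
      · have e3 : ¬ j = p := fun e3 => e1 ⟨e2.symm, e3⟩
        rw [if_pos e2, if_pos e2, if_neg e3, add_zero, bs_of_ne (Ne.symm e3)]
      · by_cases e3 : j = p
        · rw [if_neg e2, if_neg e2, if_pos e3, if_pos e3, zero_add, bs_of_ne (Ne.symm e2)]
        · rw [if_neg e2, if_neg e2, if_neg e3, if_neg e3, add_zero, er_ge le_rfl]

theorem br_Phi {p q : Fin 3} (h : p ≠ q) (X : M3) :
    brK (er (rt p q)) (Phi X) = Phi (single p q 1 * X + X * single p q 1) := by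
  induction X using Matrix.induction_on' with
  | h_zero => rw [map_zero, bzr, mul_zero, zero_mul, add_zero, map_zero]
  | h_add X Y hX hY =>
    rw [map_add, bar, hX, hY, ← map_add, mul_add, add_mul]
    congr 1
    abel
  | h_std_basis i j x =>
    rw [Phi_single, bsr, br_bs h, map_add, smul_add]
    congr 1
    · by_cases e : q = i
      · subst e
        rw [if_pos rfl, single_mul_single_same, Phi_single, one_mul]
      · rw [if_neg e, single_mul_single_of_ne _ _ _ _ e, map_zero, smul_zero]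
    · by_cases e : j = p
      · subst e
        rw [if_pos rfl, single_mul_single_same, Phi_single, mul_one]
      · rw [if_neg e, single_mul_single_of_ne _ _ _ _ e, map_zero, smul_zero]

theorem BF_er_Phi {p q : Fin 3} (h : p ≠ q) (X : M3) : BF (er (rt p q)) (Phi X) = X q p := by
  induction X using Matrix.induction_on' with
  | h_zero => rw [map_zero, map_zero]; rfl
  | h_add X Y hX hY => rw [map_add, map_add, hX, hY]; rfl
  | h_std_basis i j x =>
    rw [Phi_single, map_smul, smul_eq_mul]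
    by_cases e : i = j
    · subst e
      rw [bs_self, BF_er_hr _ (rt_lt p q), mul_zero, single_apply_of_ne _ _ _ _ _ fun k => h (k.2.symm.trans k.1)]
    · have h4 := ((rt_spec p q i j h).2.1 e).1
      rw [bs_of_ne e, BF_er_er (rt_lt p q) (rt_lt i j)]
      by_cases e1 : i = q ∧ j = p
      · rw [if_pos (h4.2 e1), mul_one, e1.1, e1.2, single_apply_same]
      · rw [if_neg (mt h4.1 e1), mul_zero, single_apply_of_ne _ _ _ _ _ e1]

theorem BF_hr_Phi {p q : Fin 3} (h : p ≠ q) (X : M3) : BF (hr (rt p q)) (Phi X) = X p p + X q q := by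
  induction X using Matrix.induction_on' with
  | h_zero => rw [map_zero, map_zero]; exact (add_zero _).symm
  | h_add X Y hX hY => rw [map_add, map_add, hX, hY, Matrix.add_apply, Matrix.add_apply]; ring
  | h_std_basis i j x =>
    rw [Phi_single, map_smul, smul_eq_mul]
    by_cases e : i = j
    · subst e
      have h1 := (rt_spec p q i i h).1
      rw [bs_self, BF_symm, BF_hr_hr]
      by_cases e1 : q = i
      · subst e1
        rw [cast_odd (mt h1.1 (not_not.2 (Or.inl rfl))), mul_one, single_apply_same,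
          single_apply_of_ne _ _ _ _ _ fun k => h k.1.symm, zero_add]
      · by_cases e2 : i = p
        · subst e2
          rw [cast_odd (mt h1.1 (not_not.2 (Or.inr rfl))), mul_one, single_apply_same,
            single_apply_of_ne _ _ _ _ _ fun k => h k.1, add_zero]
        · rw [cast_even (h1.2 (not_or.2 ⟨e1, e2⟩)), mul_zero, single_apply_of_ne _ _ _ _ _ fun k => e2 k.1,
            single_apply_of_ne _ _ _ _ _ fun k => e1 k.1.symm, add_zero]
    · rw [bs_of_ne e, BF_hr_er _ (rt_lt i j), mul_zero, single_apply_of_ne _ _ _ _ _ fun k => e (k.1.trans k.2.symm),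
        single_apply_of_ne _ _ _ _ _ fun k => e (k.1.trans k.2.symm), add_zero]

theorem Phi_one : Phi 1 = 0 := by
  have h : (1 : M3) = single 0 0 1 + single 1 1 1 + single 2 2 1 := by
    ext i j
    fin_cases i <;> fin_cases j <;> simp
  have h1 : hr 135 = hr 214 + hr 219 := hr_add (by decide +kernel)
  rw [h, map_add, map_add, Phi_single, Phi_single, Phi_single, one_smul, one_smul, one_smul, bs_self, bs_self, bs_self]
  show hr 214 + hr 219 + hr 135 = 0
  rw [← h1, ladd_self]

theorem scalar_of {X : M3} (h : ∀ p q, p ≠ q → BF (er (rt p q)) (Phi X) = 0 ∧ BF (hr (rt p q)) (Phi X) = 0) :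
    X = X 0 0 • (1 : M3) := by
  ext i j
  by_cases e : i = j
  · subst e
    rw [Matrix.smul_apply, one_apply_eq, smul_eq_mul, mul_one]
    by_cases e1 : i = 0
    · rw [e1]
    · have h1 := (h i 0 e1).2
      rw [BF_hr_Phi e1] at h1
      linear_combination h1 - kadd_self (X 0 0)
  · rw [Matrix.smul_apply, one_apply_ne e, smul_zero]
    exact (BF_er_Phi (Ne.symm e) X).symm.trans (h j i (Ne.symm e)).1

theorem ker_Phi {X : M3} (h : Phi X = 0) : X = X 0 0 • (1 : M3) :=
  scalar_of fun _ _ _ => by rw [h, map_zero, map_zero]; exact ⟨rfl, rfl⟩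

theorem er_mem {p q : Fin 3} (h : p ≠ q) : er (rt p q) ∈ LinearMap.range Phi :=
  ⟨single p q 1, by rw [Phi_single, one_smul, bs_of_ne h]⟩

theorem hr_mem {p q : Fin 3} (h : p ≠ q) : hr (rt p q) ∈ LinearMap.range Phi :=
  ⟨single p p 1 + single q q 1, by
    rw [map_add, Phi_single, Phi_single, one_smul, one_smul, bs_self, bs_self, hr_add (rt_spec p q p p h).2.2]⟩

theorem nd_Phi : Nd BF (LinearMap.range Phi) := by
  rintro _ ⟨X, rfl⟩ h
  rw [scalar_of (X := X) fun p q e => ⟨by rw [BF_symm]; exact h _ (er_mem e), by rw [BF_symm]; exact h _ (hr_mem e)⟩, map_smul,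
    Phi_one, smul_zero]

theorem dim_Phi : 8 ≤ finrank KK (LinearMap.range Phi) := by
  have h1 := LinearMap.finrank_range_add_finrank_ker Phi
  have h2 : LinearMap.ker Phi ≤ KK ∙ (1 : M3) := fun X hX => Submodule.mem_span_singleton.2 ⟨X 0 0, (ker_Phi hX).symm⟩
  have h3 := Submodule.finrank_mono h2
  rw [finrank_span_singleton one_ne_zero] at h3
  rw [Module.finrank_matrix, Module.finrank_self, Fintype.card_fin] at h1
  omega

/-- `g` acts as conjugation by `A` -/
def Ac (g : GK) (A A' : M3) : Prop := A * A' = 1 ∧ ∀ X, aK g (Phi X) = Phi (A * X * A')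

theorem Ac.mul {g k : GK} {A A' B B' : M3} (h : Ac g A A') (h' : Ac k B B') : Ac (g * k) (A * B) (B' * A') := by
  refine ⟨?_, fun X => ?_⟩
  · rw [Matrix.mul_assoc, ← Matrix.mul_assoc B, h'.1, Matrix.one_mul, h.1]
  · rw [aK_mul, h'.2, h.2]
    simp only [Matrix.mul_assoc]

theorem ac_of_fix {g : GK} (h : ∀ i j, aK g (bs i j) = bs i j) : Ac g 1 1 := by
  refine ⟨Matrix.one_mul _, fun X => ?_⟩
  rw [Matrix.one_mul, Matrix.mul_one]
  induction X using Matrix.induction_on' with
  | h_zero => rw [map_zero, aK_zero]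
  | h_add X Y hX hY => rw [map_add, aK_add, hX, hY]
  | h_std_basis i j x => rw [Phi_single, aK_smul, h]

theorem madd_self (X : M3) : X + X = 0 := by rw [← two_smul KK, two_zero, zero_smul]

theorem ac_xr {p q : Fin 3} (h : p ≠ q) (a : KK) : Ac (xr (rt p q) a) (1 + single p q a) (1 + single p q a) := by
  refine ⟨?_, fun X => ?_⟩
  · rw [add_mul, mul_add, mul_add, single_mul_single_of_ne _ _ _ _ h.symm, Matrix.one_mul, Matrix.one_mul, Matrix.mul_one,
      add_zero, add_assoc, madd_self, add_zero]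
  · rw [aK_xr' (rt_lt p q), br_Phi h, BF_er_Phi h, ← bs_of_ne h, ← Phi_single, ← map_smul, ← map_add, ← map_add]
    congr 1
    have e : single p q a = a • single p q (1 : KK) := by rw [smul_single, smul_eq_mul, mul_one]
    rw [add_mul, add_mul, mul_add, mul_add, single_mul_mul_single, e]
    simp only [Matrix.one_mul, Matrix.mul_one, Matrix.mul_smul, Matrix.smul_mul, smul_add]
    rw [show a ^ 2 * X q p = a * X q p * a by ring]
    abel

theorem ac_diag {g : GK} {d d' : Fin 3 → KK} (h0 : ∀ i, d i * d' i = 1) (h1 : ∀ i, aK g (hr (rt i i)) = hr (rt i i))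
    (h2 : ∀ i j, i ≠ j → aK g (er (rt i j)) = (d i * d' j) • er (rt i j)) : Ac g (diagonal d) (diagonal d') := by
  refine ⟨by rw [diagonal_mul_diagonal, funext h0, diagonal_one], fun X => ?_⟩
  induction X using Matrix.induction_on' with
  | h_zero => rw [map_zero, aK_zero, Matrix.mul_zero, Matrix.zero_mul, map_zero]
  | h_add X Y hX hY => rw [map_add, aK_add, hX, hY, Matrix.mul_add, Matrix.add_mul, map_add]
  | h_std_basis i j x =>
    have e : diagonal d * single i j x * diagonal d' = single i j (x * (d i * d' j)) := by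
      ext a b
      rw [mul_diagonal, diagonal_mul]
      by_cases k : i = a ∧ j = b
      · obtain ⟨rfl, rfl⟩ := k
        rw [single_apply_same, single_apply_same]
        ring
      · rw [single_apply_of_ne _ _ _ _ _ k, single_apply_of_ne _ _ _ _ _ k, mul_zero, zero_mul]
    rw [e, Phi_single, Phi_single, aK_smul, mul_smul]
    by_cases k : i = j
    · subst k
      rw [bs_self, h1, h0, one_smul]
    · rw [bs_of_ne k, h2 i j k]

/-- potentials for the roots -/
def ep : Fin 3 → Q8 := ![vec chevE8 8 219, vec chevE8 8 214, 0]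

theorem ep_spec : ∀ i j, i ≠ j → vec chevE8 8 (rt i j) = ep i + -ep j := by decide +kernel

theorem ac_tor {t : GK} (ht : t ∈ TT chevE8 KK) :
    Ac t (diagonal fun i => cX e8T t (ep i)) (diagonal fun i => cX e8T t (-ep i)) :=
  ac_diag (fun i => by rw [← (isMC_cX e8T ht).add, add_neg_cancel, (isMC_cX e8T ht).zero]) (fun _ => aK_t_hr ht _)
    fun i j h => by rw [aK_tor_er ht (rt_lt i j), ep_spec i j h, (isMC_cX e8T ht).add]

/-- the roots of the centraliser of `z` -/
def LZ : List ℕ := [0, 9, 10, 11, 12, 26, 27, 28, 30, 31, 33, 36, 37, 38, 40, 41, 43, 67, 68, 69, 70, 72, 73, 74, 75, 78, 79, 81, 84,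
  98, 111, 112, 113, 115, 116, 118, 121, 123, 124, 126, 127, 128, 141, 155, 158, 160, 161, 164, 165, 166, 167, 169, 170, 171, 172,
  196, 198, 199, 201, 202, 203, 206, 208, 209, 211, 212, 213, 227, 228, 229, 230, 239, 20, 25, 104, 135, 214, 219]

theorem LZ_z : ∀ r < 240, (∀ i : Fin 1, dz (![vc 2216] i) (vec chevE8 8 r) = 0) → r ∈ LZ := by decide +kernel

theorem LZ_spec : ∀ r ∈ LZ, r < 240 ∧ ((∃ p q, p ≠ q ∧ r = rt p q) ∨ ∀ i, Ort r (rt i i)) := by decide +kernel

theorem bs_Dr (i j : Fin 3) : ∃ k, bs i j ∈ Dr (rt k k) := by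
  by_cases e : i = j
  · exact ⟨i, by rw [← e, bs_self]; exact hr_Dr _⟩
  · have h : ∀ i j, i ≠ j → ∃ k, rt i j = rt k k ∨ rt i j = 239 - rt k k := by decide
    obtain ⟨k, h1 | h1⟩ := h i j e
    · exact ⟨k, by rw [bs_of_ne e, h1]; exact er_Dr _⟩
    · exact ⟨k, by rw [bs_of_ne e, h1]; exact en_Dr _⟩

theorem ac_ort {r : ℕ} (h : ∀ i, Ort r (rt i i)) (a : KK) : Ac (xr r a) 1 1 :=
  ac_of_fix fun i j => by
    obtain ⟨k, hk⟩ := bs_Dr i j
    exact (h k).fix a hk

variable {ζ : KK}

/-- **the centraliser of `z` acts by conjugation** -/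
theorem ac_cent (hζ : IsPrimitiveRoot ζ 3) {t g : GK} (ht : Tv t (vc 2216) ζ) (hg : g * t = t * g) : ∃ A A', Ac g A A' := by
  obtain ⟨m, hm, s, hs, rfl⟩ := cent_gen hζ (n := 0) (t := ![t]) (V := ![vc 2216]) (fun i => by fin_cases i; exact ht)
    (fun i => i.elim0) LZ_z (c := g) (fun i => by fin_cases i; exact hg)
  obtain ⟨A, A', h⟩ := KB_ind (fun r hr => (LZ_spec r hr).1) (P := fun g => ∃ A A', Ac g A A')
    ⟨1, 1, ac_of_fix fun _ _ => aK_one _⟩ (fun r hr a g ⟨A, A', h⟩ => by
      rcases (LZ_spec r hr).2 with ⟨p, q, e, rfl⟩ | h1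
      · exact ⟨_, _, (ac_xr e a).mul h⟩
      · exact ⟨_, _, (ac_ort h1 a).mul h⟩) hm
  exact ⟨_, _, h.mul (ac_tor hs)⟩

theorem scal {A A' B B' : M3} (hA : A * A' = 1) (hB : B * B' = 1)
    (h : ∀ i j, Phi (A * single i j 1 * A') = Phi (B * single i j 1 * B')) : ∃ c : KK, A = c • B := by
  have hA' : A' * A = 1 := mul_eq_one_comm.1 hA
  have hB' : B' * B = 1 := mul_eq_one_comm.1 hB
  have h1 : ∀ i j, A * single i j 1 * A' = B * single i j 1 * B' := fun i j => by
    obtain ⟨c, h2⟩ : ∃ c : KK, A * single i j 1 * A' - B * single i j 1 * B' = c • (1 : M3) :=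
      ⟨_, ker_Phi (by rw [map_sub, h, sub_self])⟩
    have h3 := congrArg trace h2
    rw [trace_sub, trace_mul_cycle, trace_mul_cycle B, hA', hB', sub_self, trace_smul, trace_one, Fintype.card_fin,
      smul_eq_mul] at h3
    have h4 : c = 0 := by
      push_cast at h3
      linear_combination -h3 - kadd_self c
    rw [← sub_eq_zero, h2, h4, zero_smul]
  obtain ⟨c, hc⟩ := mem_range_scalar_of_commute_single (M := B' * A) fun i j _ => by
    show single i j 1 * (B' * A) = B' * A * single i j 1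
    calc single i j 1 * (B' * A) = B' * (B * single i j 1 * B') * A := by
          simp only [← Matrix.mul_assoc]; rw [hB', Matrix.one_mul]
      _ = B' * A * single i j 1 * (A' * A) := by rw [← h1]; simp only [Matrix.mul_assoc]
      _ = _ := by rw [hA', Matrix.mul_one]
  refine ⟨c, ?_⟩
  rw [← Matrix.one_mul A, ← hB, Matrix.mul_assoc, ← hc, scalar_apply, ← smul_one_eq_diagonal, Matrix.mul_smul, Matrix.mul_one]

/-- the adjoint matrix -/
noncomputable def st (X : M3) : M3 := (frobenius KK 2).mapMatrix Xᵀ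

theorem st_apply (X : M3) (i j : Fin 3) : st X i j = X j i ^ 2 := rfl

theorem st_mul (X Y : M3) : st (X * Y) = st Y * st X := by rw [st, transpose_mul, map_mul]; rfl

theorem st_one : st 1 = 1 := by rw [st, transpose_one, map_one]

theorem st_single (i j : Fin 3) (x : KK) : st (single i j x) = single j i (x ^ 2) := by
  ext a b
  rw [st_apply]
  by_cases k : i = b ∧ j = a
  · obtain ⟨rfl, rfl⟩ := k
    rw [single_apply_same, single_apply_same]
  · rw [single_apply_of_ne _ _ _ _ _ k, single_apply_of_ne _ _ _ _ _ fun e => k e.symm, zero_pow two_ne_zero]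

theorem Fz_Phi (X : M3) : Fz (Phi X) = Phi (st X) := by
  induction X using Matrix.induction_on' with
  | h_zero => rw [map_zero, Fz_zero, st, transpose_zero, map_zero, map_zero]
  | h_add X Y hX hY => rw [map_add, Fz_add, hX, hY, st, st, st, transpose_add, map_add, map_add]
  | h_std_basis i j x =>
    rw [st_single, Phi_single, Phi_single, Fz_smul]
    by_cases k : i = j
    · subst k
      rw [bs_self, Fz_hr]
    · rw [bs_of_ne k, bs_of_ne (Ne.symm k), Fz_er (rt_lt i j), rt_neg i j k]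

theorem herm_one (hζ : IsPrimitiveRoot ζ 3) {A : M3} {ν : KK} (h1 : A * A = 1) (h2 : ∀ i j, A i j = A j i ^ 2)
    (h3 : A * (diagonal ![ζ, ζ, 1] * A * (diagonal ![ζ, ζ, 1] * diagonal ![ζ, ζ, 1])) =
      ν • (diagonal ![ζ, ζ, 1] * (diagonal ![ζ, ζ, 1] * A * diagonal ![ζ, ζ, 1]))) : A = 1 := by
  have hz := zeta_eq hζ
  have z3 : ζ ^ 3 = 1 := hζ.pow_eq_one
  have z0 : ζ ≠ 0 := hζ.ne_zero (by norm_num)
  have t := two_zero
  have a00 := congrFun (congrFun h1 0) 0
  have a11 := congrFun (congrFun h1 1) 1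
  have a22 := congrFun (congrFun h1 2) 2
  have b00 := congrFun (congrFun h3 0) 0
  have b11 := congrFun (congrFun h3 1) 1
  have b22 := congrFun (congrFun h3 2) 2
  simp only [diagonal_mul_diagonal, Matrix.smul_apply, diagonal_mul, smul_eq_mul] at b00 b11 b22
  simp only [Matrix.mul_apply (M := A), Fin.sum_univ_three, mul_diagonal, diagonal_mul, one_apply_eq, cons_val_zero, cons_val_one,
    cons_val_two, head_cons, tail_cons] at a00 a11 a22 b00 b11 b22
  have r1 : A 2 2 = 1 := by
    have k : A 2 2 * (A 2 2 - 1) = 0 := by linear_combination -h2 2 2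
    refine sub_eq_zero.1 ((mul_eq_zero.1 k).resolve_left fun k0 => z0 ?_)
    rw [k0] at a22 b22
    linear_combination b22 - ζ * a22
  have n1 : ν = 1 := by
    rw [r1] at a22 b22
    linear_combination ζ * a22 - b22
  have key : ∀ p x u v : KK, p = p ^ 2 → u = v ^ 2 → v = u ^ 2 → p * p + x + u * v = 1 →
      ζ ^ 3 * (p * p + x) + ζ ^ 2 * (u * v) = ζ ^ 3 * p → u = 0 ∧ v = 0 ∧ p = 1 ∧ x = 0 := fun p x u v k1 k2 k3 k4 k5 => by
    rw [z3, one_mul, one_mul] at k5
    have n2 : (u * v) ^ 2 = u * v := by rw [mul_pow, ← k2, ← k3, mul_comm]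
    have k6 : p = 1 + ζ * (u * v) := by linear_combination k4 - k5 + u * v * hz - (ζ * u * v + u * v) * t
    have k7 : u * v = 0 := by
      rw [k6] at k1
      linear_combination k1 + ζ ^ 2 * n2 + (u * v) * hz
    have k8 : u = 0 := pow_eq_zero_iff (n := 3) (by norm_num) |>.1 (by linear_combination k7 - u * k3)
    refine ⟨k8, by rw [k3, k8, zero_pow two_ne_zero], by rw [k6, k7, mul_zero, add_zero], ?_⟩
    rw [k6, k7] at k4
    linear_combination k4
  obtain ⟨c1, c2, c3, c4⟩ := key (A 0 0) (A 0 1 * A 1 0) (A 0 2) (A 2 0) (h2 0 0) (h2 0 2) (h2 2 0) a00 (by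
    rw [n1] at b00
    linear_combination b00)
  obtain ⟨c5, c6, c7, -⟩ := key (A 1 1) (A 1 0 * A 0 1) (A 1 2) (A 2 1) (h2 1 1) (h2 1 2) (h2 2 1) (by linear_combination a11) (by
    rw [n1] at b11
    linear_combination b11)
  have c8 : A 0 1 = 0 := pow_eq_zero_iff (n := 3) (by norm_num) |>.1 (by linear_combination c4 - A 0 1 * h2 1 0)
  have c9 : A 1 0 = 0 := by rw [h2 1 0, c8, zero_pow two_ne_zero]
  ext i j
  fin_cases i <;> fin_cases j
  exacts [c3, c8, c1, c9, c7, c5, c2, c6, r1]

theorem Ac.congr {g : GK} {A A' B B' : M3} (h : Ac g A A') (h' : Ac g B B') : ∃ c : KK, A = c • B :=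
  scal h.1 h'.1 fun _ _ => (h.2 _).symm.trans (h'.2 _)

theorem trace_sq (A : M3) : trace (A * A) = trace A ^ 2 := by
  simp only [trace, diag, Matrix.mul_apply, Fin.sum_univ_three]
  linear_combination (A 0 1 * A 1 0 + A 0 2 * A 2 0 + A 1 2 * A 2 1 - A 0 0 * A 1 1 - A 0 0 * A 2 2 - A 1 1 * A 2 2) * two_zero

theorem trace_st (A : M3) : trace (st A) = trace A ^ 2 := by
  simp only [trace, diag, st_apply, Fin.sum_univ_three]
  linear_combination (-A 0 0 * A 1 1 - A 0 0 * A 2 2 - A 1 1 * A 2 2) * two_zero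

/-- **the four-group acts trivially** -/
theorem a2_triv (hζ : IsPrimitiveRoot ζ 3) {g e : GK} {A A' : M3} (h : Ac g A A')
    (he : Ac e (diagonal ![ζ, ζ, 1]) (diagonal ![ζ * ζ, ζ * ζ, 1])) (h2 : ∀ X, aK g (aK g (Phi X)) = Phi X)
    (hF : ∀ v, aK g (Fz v) = Fz (aK g v)) (hrel : g * (e * g * (e * e)) = e * (e * g * e)) (X : M3) :
    aK g (Phi X) = Phi X := by
  have k1 : Ac (g * g) 1 1 := ⟨Matrix.one_mul _, fun X => by rw [aK_mul, h2, Matrix.one_mul, Matrix.mul_one]⟩
  obtain ⟨c, hc⟩ := (h.mul h).congr k1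
  have e1 : A = c • A' := by
    rw [← Matrix.mul_one A, ← h.1, ← Matrix.mul_assoc, hc, Matrix.smul_mul, Matrix.one_mul]
  obtain ⟨μ, hμ⟩ := IsAlgClosed.exists_pow_nat_eq c (n := 2) (by norm_num)
  have e2 : ∀ Y : M3, A * Y * A' = μ • A' * Y * μ • A' := fun Y => by
    rw [e1, Matrix.smul_mul, Matrix.smul_mul, Matrix.smul_mul, Matrix.smul_mul, Matrix.mul_smul, smul_smul, ← pow_two, hμ]
  have k2 : Ac g (μ • A') (μ • A') := ⟨by
    have k := e2 1
    rwa [Matrix.mul_one, Matrix.mul_one, h.1, eq_comm] at k, fun Y => by rw [h.2, e2]⟩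
  generalize μ • A' = B at k2
  have t1 : trace B = 1 := sq_inj (by
    rw [← trace_sq, k2.1, trace_one, Fintype.card_fin, one_pow]
    push_cast
    linear_combination two_zero)
  obtain ⟨d, hd⟩ := scal (A := B) (A' := B) (B := st B) (B' := st B) k2.1 (by rw [← st_mul, k2.1, st_one]) fun i j => by
    have k3 : (single i j 1 : M3) = st (single j i 1) := by rw [st_single, one_pow]
    rw [← k2.2, k3, ← Fz_Phi, hF, k2.2, Fz_Phi, st_mul, st_mul, Matrix.mul_assoc]
  have d1 : d = 1 := by
    have k3 := congrArg trace hd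
    rw [trace_smul, trace_st, t1, one_pow, smul_eq_mul, mul_one] at k3
    exact k3.symm
  rw [d1, one_smul] at hd
  have k4 := k2.mul ((he.mul k2).mul (he.mul he))
  rw [hrel] at k4
  obtain ⟨ν, hν⟩ := k4.congr (he.mul ((he.mul k2).mul he))
  have k5 := herm_one hζ k2.1 (fun i j => congrFun (congrFun hd i) j) hν
  rw [k2.2, k5, Matrix.one_mul, Matrix.mul_one]

end Cfsg.Agent.E82.U4
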