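import Cfsg.Agent.E82.U4.Num

/-!
# S3369, row `U₄(2)`: the case `(92, 80)` (helper39)
-/

set_option autoImplicit false
set_option linter.unusedSectionVars false
set_option maxRecDepth 100000

namespace Cfsg.Agent.E82.U4

open Module Cfsg Cfsg.Lie
open Cfsg.Agent.H180.U42 (GG one)
open Cfsg.Agent.H129.TorusChar (cX_one)
open Cfsg.Agent.H939.L64 (KK E2 LK em aK rE)
open Cfsg.Agent.H413.L16
open Cfsg.Agent.H876.L64 (two_zero aK_mul)
open Cfsg.Agent.H942.L16 (BF BF_aK BF_symm BF_hr_hr ipr)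
open Cfsg.Agent.E82.Fr

variable {ζ : KK}

theorem tv_one : Tv 1 (0 : Fin 8 → ZMod 3) ζ :=
  ⟨one_mem _, fun j => by rw [cX_one, Pi.zero_apply, ZMod.val_zero, pow_zero]⟩

theorem tv_word (hζ : IsPrimitiveRoot ζ 3) {φ : GG →* GK} {V : Fin 3 → Fin 8 → ZMod 3} (ht : ∀ i : Fin 3, Tv (φ (W [i])) (V i) ζ)
    (l : List (Fin 3)) : Tv (φ (W (l.map Fin.val))) (l.map V).sum ζ := by
  induction l with
  | nil => rw [List.map_nil, W_nil, map_one]; exact tv_one
  | cons i l ih =>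
    rw [List.map_cons, List.map_cons, List.sum_cons, ← List.singleton_append, W_append, map_mul]
    exact (ht i).mul hζ ih

theorem tv_cj (hζ : IsPrimitiveRoot ζ 3) {φ : GG →* GK} {V : Fin 3 → Fin 8 → ZMod 3} (ht : ∀ i : Fin 3, Tv (φ (W [i])) (V i) ζ)
    {s : List ℕ} (m : Fin 3 → List (Fin 3)) (h : ∀ i : Fin 3, cw (s ++ [(i : ℕ)]) = cw ((m i).map Fin.val ++ s)) (i : Fin 3) :
    Tv (φ (W s) * φ (W [i]) * (φ (W s))⁻¹) ((m i).map V).sum ζ := by
  rw [← map_inv, ← map_mul, ← map_mul, W_conj (h i)]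
  exact tv_word hζ ht _

/-- conjugation by the transpositions -/
def mS : Fin 3 → Fin 3 → List (Fin 3) := ![![[0], [2, 2], [1, 1]], ![[1], [0], [2]], ![[0], [2], [1]]]

theorem mS_spec : ∀ s i : Fin 3, cw ([(s : ℕ) + 3] ++ [(i : ℕ)]) = cw ((mS s i).map Fin.val ++ [(s : ℕ) + 3]) := by decide +kernel

theorem zeta_eq (hζ : IsPrimitiveRoot ζ 3) : ζ ^ 2 + ζ + 1 = 0 := by
  have h := hζ.geom_sum_eq_zero (by norm_num)
  simp only [Finset.sum_range_succ, Finset.range_zero, Finset.sum_empty] at h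
  linear_combination h

theorem Rep.quat {π : GG →* E2} {ρ : GG →* End KK LK} (h : Rep π ρ) : Quat BF (FW ρ [wr, wd, wz]) (R ρ we) (R ρ [6])
    (R ρ (we ++ [6] ++ we ++ we)) (R ρ (we ++ we ++ [6] ++ we)) (R ρ [3]) :=
  ⟨tet_of (by decide +kernel) BF_symm h.inv h.ndQ, R_eq2 (by decide +kernel), R_eq2 (by decide +kernel),
    R_eq2 (by decide +kernel), R_eq2 (by decide +kernel), R_eq2 (by decide +kernel), R_eq2 (by decide +kernel),
    fun v => by rw [R_eq2 (c := []) (by decide +kernel), R_nil]⟩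

/-- the words of the transpositions in the second frame -/
def lD : Fin 3 → List ℕ := ![[134, 151, 128, 123], [155, 236, 150, 133], [231, 234, 127, 124]]

theorem lD_spec : ∀ s, okL (lD s) = true ∧ (∀ i, wl (lD s) ((mS s i).map fun j => vc (cD j)).sum = vc (cD i)) ∧
    (lD s).foldr rf 135 = 239 - 141 ∧ (lD s).foldr rf 141 = 239 - 135 := by decide +kernel

/-- **the case `(92, 80)`** -/
theorem nine {π : GG →* E2} (hinj : Function.Injective π) (h0 : ¬ Fixd π) (hT : Trip (fun i : Fin 3 => π (W [i])) 92 80) :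
    False := by
  obtain ⟨ζ, z, hζ, h1, -⟩ := frame2 hT
  have h := rep_rz hinj h0 z
  have ht : ∀ i : Fin 3, Tv (fz π z (W [i])) (vc (cD i)) ζ := fun i => One.tv (h1 i)
  have hs : ∀ s : Fin 3, R (rz π z) [(s : ℕ) + 3] (hr 135) = hr 141 ∧ R (rz π z) [(s : ℕ) + 3] (hr 141) = hr 135 := fun s => by
    obtain ⟨a1, a2, a3, a4⟩ := lD_spec s
    obtain ⟨m, hm, t, ht', e⟩ := norm_gen hζ ht (fun i => by fin_cases i; exacts [sm972, sm4726]) L_cD
      (tv_cj hζ ht (mS s) (mS_spec s)) a1 a2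
    have b1 : InL [135, 104, 141, 98] 135 := by decide +kernel
    have b2 : InL [135, 104, 141, 98] 141 := by decide +kernel
    rw [R_rz, R_rz, e, aK_mul, aK_mul, aK_mul, aK_mul, aK_t_hr ht', aK_t_hr ht', b1.hr hm, b2.hr hm, gw_hr a1 (by norm_num),
      gw_hr a1 (by norm_num), a3, a4, hr_neg (by norm_num), hr_neg (by norm_num)]
    exact ⟨rfl, rfl⟩
  have hE : ∀ (l : List (Fin 3)) (a : ℕ), R (rz π z) (l.map Fin.val) (hr a) = hr a := fun l a => aK_t_hr (tv_word hζ ht l).1 a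
  have d1 : BF (hr 162) (hr 135) = 1 := (BF_hr_hr _ _).trans (cast_odd (by decide +kernel))
  have d2 : BF (hr 162) (hr 141) = 0 := (BF_hr_hr _ _).trans (cast_even (by decide +kernel))
  have d3 : BF (hr 164) (hr 135) = 0 := (BF_hr_hr _ _).trans (cast_even (by decide +kernel))
  have d4 : BF (hr 164) (hr 141) = 1 := (BF_hr_hr _ _).trans (cast_odd (by decide +kernel))
  have s3 : R (rz π z) [3] (hr 135) = hr 141 ∧ R (rz π z) [3] (hr 141) = hr 135 := hs 0
  have s4 : R (rz π z) [4] (hr 135) = hr 141 ∧ R (rz π z) [4] (hr 141) = hr 135 := hs 1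
  have s5 : R (rz π z) [5] (hr 135) = hr 141 ∧ R (rz π z) [5] (hr 141) = hr 135 := hs 2
  have hC : df (rz π z) [[0]] = 92 := (h.df1 _).trans (hT.one 0)
  obtain ⟨hQ, hR⟩ : df (rz π z) [wr, wd, wz] = 6 ∧ df (rz π z) [wr, we, wd, wz] = 4 := by
    rcases h.two with k | k
    · exact absurd (hC.symm.trans k.1) (by norm_num)
    · exact k.2.2
  have hF : ∀ a, R (rz π z) wr (hr a) = hr a → R (rz π z) wk (hr a) = hr a → hr a ∈ FW (rz π z) [wk, wr, we, wd, wz] :=
    fun a a1 a2 => by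
      simp only [mem_FW, List.forall_mem_cons]
      exact ⟨a2, a1, hE [1, 1, 2] a, hE [0, 0, 1] a, hE [0, 1, 2, 2] a, fun _ k => absurd k List.not_mem_nil⟩
  have hp := hF 135 ((R_app [3] [4] _).trans (by rw [s4.1, s3.2])) ((R_app [3] [5] _).trans (by rw [s5.1, s3.2]))
  have hq := hF 141 ((R_app [3] [4] _).trans (by rw [s4.2, s3.1])) ((R_app [3] [5] _).trans (by rw [s5.2, s3.1]))
  generalize rz π z = ρ at h s3 hQ hR hp hq
  generalize hr 135 = p at s3 d1 d3 hp
  generalize hr 141 = q at s3 d2 d4 hq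
  have hle : FW ρ [wk, wr, we, wd, wz] ≤ FW ρ [wr, wd, wz] ⊓ fx (R ρ we) := by
    rw [← FW_cons]
    exact fun v hv w hw => hv w (by revert w; decide)
  have key : ∀ v ∈ FW ρ [wk, wr, we, wd, wz], R ρ [6] v = v → v = 0 := fun v hv hi => h.nf v (fix_all (by
    rw [FW_cons]; exact ⟨hv, mem_fx.2 hi⟩))
  have hd : df ρ [wr, we, wd, wz] ≤ df ρ [we, wr, wd, wz] := df_le [] (by decide +kernel)
  rcases h.quat.q8 two_zero (zeta_eq hζ) (by
    rw [← FW_cons]
    show df ρ _ ≤ df ρ _ + 2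
    omega) (hle hp) (hle hq) (by rw [map_add, s3.1, s3.2, add_comm]) with k | ⟨c, k⟩
  · have k1 := congrArg (BF (hr 162)) (key _ (Submodule.add_mem _ hp hq) k)
    rw [map_add, d1, d2, map_zero, add_zero] at k1
    exact one_ne_zero k1
  · have k0 := key _ (Submodule.sub_mem _ hp (Submodule.smul_mem _ c (Submodule.add_mem _ hp hq))) k
    have k1 := congrArg (BF (hr 162)) k0
    have k2 := congrArg (BF (hr 164)) k0
    rw [map_sub, map_smul, map_add, map_zero, smul_eq_mul] at k1 k2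
    rw [d1, d2] at k1
    rw [d3, d4] at k2
    exact one_ne_zero (α := KK) (by linear_combination k1 - k2)

end Cfsg.Agent.E82.U4
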