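import Cfsg.Agent.E82.U4.Grp
import Cfsg.Agent.E82.Fr.T8

/-!
# S3369, row `U₄(2)`: the dimensions of the fixed spaces of the 3-subgroups (helper39)
-/

set_option autoImplicit false
set_option linter.unusedSectionVars false
set_option maxRecDepth 100000

namespace Cfsg.Agent.E82.U4

open Module
open Cfsg.Agent.H180.U42 (GG one)
open Cfsg.Agent.H939.L64 (KK E2 LK em aK rE finrank_LK)
open Cfsg.Agent.H943.RepAdd (eig)
open Cfsg.Agent.H413.L16 (lin lin_apply)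
open Cfsg.Agent.H876.L64 (two_zero aK_mul aK_one aK_inv aK_inv')
open Cfsg.Agent.H942.L16 (BF BF_aK BF_symm BF_eq_zero)
open Cfsg.Agent.E82.Fr

/-- the adjoint representation of the algebraic group -/
noncomputable def aH : GK →* End KK LK where
  toFun := lin
  map_one' := LinearMap.ext aK_one
  map_mul' := fun a b => LinearMap.ext (aK_mul a b)

/-- the homomorphism in a frame -/
noncomputable def fz (π : GG →* E2) (z : GK) : GG →* GK := (cj z).comp π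

/-- the representation in a frame -/
noncomputable def rz (π : GG →* E2) (z : GK) : GG →* End KK LK := aH.comp (fz π z)

theorem fz_apply (π : GG →* E2) (z : GK) (g : GG) : fz π z g = cj z (π g) := rfl

theorem rz_apply (π : GG →* E2) (z : GK) (g : GG) (v : LK) : rz π z g v = aK (fz π z g) v := rfl

theorem R_rz (π : GG →* E2) (z : GK) (l : List ℕ) (v : LK) : R (rz π z) l v = aK (fz π z (W l)) v := rfl

/-- the data -/
structure Rep (π : GG →* E2) (ρ : GG →* End KK LK) : Prop where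
  inj : Function.Injective π
  dim : ∀ g, finrank KK (fx (ρ g)) = cf (π g)
  inv : ∀ g u v, BF (ρ g u) (ρ g v) = BF u v
  nf : ∀ v, (∀ g, ρ g v = v) → v = 0

theorem rep_rz {π : GG →* E2} (h : Function.Injective π) (h0 : ¬ Fixd π) (z : GK) : Rep π (rz π z) := by
  have hz : Function.Injective (lin z) := fun u v e => by
    rw [← aK_inv' z u, ← aK_inv' z v]
    exact congrArg (aK z⁻¹) e
  refine ⟨h, fun g => ?_, fun g u v => BF_aK _ u v, fun v hv => ?_⟩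
  · have h1 : (fx (rz π z g)).map (lin z) = eig rE (π g) 1 := by
      ext v
      rw [mem_eig1, Submodule.mem_map]
      constructor
      · rintro ⟨w, hw, rfl⟩
        rw [lin_apply, rE_cj]
        exact congrArg (aK z) (mem_fx.1 hw)
      · intro hv
        refine ⟨aK z⁻¹ v, mem_fx.2 (hz ?_), aK_inv z v⟩
        rw [lin_apply, lin_apply, rz_apply, fz_apply, ← rE_cj, aK_inv, hv]
    unfold cf
    rw [← h1]
    exact (Submodule.equivMapOfInjective _ hz _).finrank_eq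
  · by_contra h1
    refine h0 ⟨aK z v, fun e => h1 (hz (e.trans (map_zero (lin z)).symm)), fun s => ?_⟩
    rw [rE_cj]
    exact congrArg (aK z) (hv s)

/-- the word of an element of order nine -/
def wx : List ℕ := we ++ wr

/-- the word of another one -/
def wy : List ℕ := we ++ wr ++ wr

theorem arith {C D T Z E0 a2 a3 a4 a5 a6 a7 EE QQ RR M M' : ℕ} (hz : Z = 86) (h9 : T = 28 ∨ T = 48 ∨ T = 34 ∨ T = 30)
    (hc : C = 134 ∨ C = 92 ∨ C = 86 ∨ C = 80) (hd : D = 134 ∨ D = 92 ∨ D = 86 ∨ D = 80) (hp : qe D + qe D = 2 * (qe C + qe C))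
    (p1 : 162 + 3 * E0 = D + D + D) (p2 : 162 + 3 * a2 = D + C + Z) (p3 : 162 + 3 * a3 = D + C + Z)
    (p4 : 162 + 3 * a4 = Z + C + D) (p5 : 162 + 3 * a5 = D + D + D) (p6 : 162 + 3 * a6 = D + D + D)
    (p7 : 162 + 3 * a7 = D + D + D) (q1 : Z + 3 * EE = E0 + a2 + a3 + a4) (q2 : Z + 3 * QQ = E0 + a5 + a6 + a7)
    (q3 : 86 + 3 * M = E0 + 3 * T) (q4 : 86 + 3 * M' = E0 + 3 * T) (q5 : E0 + 3 * RR = EE + QQ + M + M') (q6 : RR ≤ M)
    (q7 : RR ≤ QQ) : (C = 92 ∧ D = 134 ∧ EE = 48 ∧ QQ = 78 ∧ RR = 46) ∨ (C = 134 ∧ D = 92 ∧ EE = 34 ∧ QQ = 22 ∧ RR = 18) ∨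
      (C = 80 ∧ D = 92 ∧ EE = 16 ∧ QQ = 22 ∧ 8 ≤ RR) ∨ (C = 92 ∧ D = 80 ∧ QQ = 6 ∧ RR = 4) := by
  have hq : ∀ C ∈ [134, 92, 86, 80], ∀ D ∈ [134, 92, 86, 80], qe D + qe D = 2 * (qe C + qe C) →
      (C = 92 ∧ D = 134) ∨ (C = 134 ∧ D = 92) ∨ (C = 80 ∧ D = 92) ∨ (C = 92 ∧ D = 80) ∨ (C = 86 ∧ D = 86) := by decide +kernel
  have h0 : E0 + 54 = D := by linarith
  have h1 : 3 * EE + 216 = C + 2 * D := by linarith
  have h2 : 3 * QQ + 302 = 4 * D := by linarith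
  have h3 : 3 * M + 140 = D + 3 * T := by linarith
  have h4 : D + 3 * RR = EE + QQ + 2 * M + 54 := by linarith
  clear p1 p2 p3 p4 p5 p6 p7 q1 q2 q3 q4 q5 h0 hz
  rcases hq C (by simpa using hc) D (by simpa using hd) hp with ⟨rfl, rfl⟩ | ⟨rfl, rfl⟩ | ⟨rfl, rfl⟩ | ⟨rfl, rfl⟩ | ⟨rfl, rfl⟩ <;>
    clear hc hd hp hq
  · exact Or.inl ⟨rfl, rfl, by omega, by omega, by omega⟩
  · exact Or.inr (Or.inl ⟨rfl, rfl, by omega, by omega, by omega⟩)
  · exact Or.inr (Or.inr (Or.inl ⟨rfl, rfl, by omega, by omega, by omega⟩))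
  · exact Or.inr (Or.inr (Or.inr ⟨rfl, rfl, by omega, by omega⟩))
  · exfalso; omega

theorem arith2 {C D EE QQ RR A B : ℕ} (h1 : (C = 92 ∧ D = 134 ∧ EE = 48 ∧ QQ = 78 ∧ RR = 46) ∨
    (C = 134 ∧ D = 92 ∧ EE = 34 ∧ QQ = 22 ∧ RR = 18) ∨ (C = 80 ∧ D = 92 ∧ EE = 16 ∧ QQ = 22 ∧ 8 ≤ RR) ∨
    (C = 92 ∧ D = 80 ∧ QQ = 6 ∧ RR = 4)) (h2 : 3 * RR ≤ EE + 2 * A) (h3 : 2 * RR ≤ QQ + B) (h4 : A + B ≤ RR) :
    (C = 80 ∧ D = 92 ∧ QQ = 22 ∧ 8 ≤ RR ∧ 3 * RR ≤ 16 + 2 * A) ∨ (C = 92 ∧ D = 80 ∧ QQ = 6 ∧ RR = 4) := by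
  rcases h1 with h1 | h1 | h1 | h1
  · exfalso; omega
  · exfalso; omega
  · exact Or.inl ⟨h1.1, h1.2.1, h1.2.2.2.1, h1.2.2.2.2, by omega⟩
  · exact Or.inr h1

namespace Rep

variable {π : GG →* E2} {ρ : GG →* End KK LK} (h : Rep π ρ)
include h

theorem df1 (w : List ℕ) : df ρ [w] = cf (π (W w)) := by rw [df, FW_one, R, h.dim]

theorem cj (g : List ℕ) {a b : List ℕ} (e : cw (g ++ a) = cw (b ++ g)) : df ρ [b] = df ρ [a] := by
  rw [h.df1, h.df1, ← W_conj e, map_mul, map_mul, map_inv, fd_conj]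

theorem ne {a : List ℕ} (e : H180.U42.cmp (cw a) one ≠ H180.U42.cmp one one) : π (W a) ≠ 1 := fun h1 =>
  W_ne e (h.inj (h1.trans (map_one π).symm))

theorem nd0 : Nd BF (FW ρ []) := fun w _ h1 => BF_eq_zero fun v => h1 v (by rw [FW_nil]; trivial)

theorem ndZ : Nd BF (FW ρ [wz]) := nd_cons two_zero h.inv (by decide +kernel) h.nd0

theorem nd2 : Nd BF (FW ρ [wd, wz]) := nd_cons two_zero h.inv (by decide +kernel) h.ndZ

theorem ndE : Nd BF (FW ρ [we, wd, wz]) := nd_cons two_zero h.inv (by decide +kernel) h.nd2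

theorem ndQ : Nd BF (FW ρ [wr, wd, wz]) := nd_cons two_zero h.inv (by decide +kernel) h.nd2

theorem ndR : Nd BF (FW ρ [wr, we, wd, wz]) := nd_cons two_zero h.inv (by decide +kernel) h.ndE

theorem d0 : df ρ [] = 248 := by rw [df, FW_nil, finrank_top, finrank_LK]

theorem d9 : df ρ [wz] = 86 ∧ (df ρ [wx] = 28 ∨ df ρ [wx] = 48 ∨ df ρ [wx] = 34 ∨ df ρ [wx] = 30) := by
  have e : π (W wx) ^ 3 = π (W wz) := by
    rw [← map_pow, pow_succ, pow_two, ← W_append, ← W_append, W_eq (b := wz) (by decide +kernel)]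
  have h1 := fd9 (x := π (W wx)) (by
    rw [show 9 = 3 * 3 from rfl, pow_mul, e, ← map_pow, W_cube (by decide +kernel), map_one]) (by
    rw [e]; exact h.ne (by decide +kernel))
  rwa [e, ← h.df1, ← h.df1] at h1

theorem d3 {a : List ℕ} (e : cw (a ++ a ++ a) = one) (e' : H180.U42.cmp (cw a) one ≠ H180.U42.cmp one one) :
    df ρ [a] = 134 ∨ df ρ [a] = 92 ∨ df ρ [a] = 86 ∨ df ρ [a] = 80 := by
  rw [h.df1]
  exact fd3 (by rw [← map_pow, W_cube e, map_one]) (h.ne e')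

theorem dpar : qe (df ρ [wd]) + qe (df ρ [wd]) = 2 * (qe (df ρ [[0]]) + qe (df ρ [[0]])) := by
  have h1 := par (a := π (W [0])) (b := π (W [1])) (by rw [← map_pow, W_cube (by decide +kernel), map_one])
    (by rw [← map_pow, W_cube (by decide +kernel), map_one])
    (by rw [Commute, SemiconjBy, ← map_mul, ← map_mul, W_comm (by decide +kernel)])
  rwa [← map_inv, ← map_mul, ← map_mul, W_inv (b := [1, 1]) (by decide +kernel), ← W_append, ← W_append, ← h.df1, ← h.df1,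
    ← h.df1, ← h.df1, h.cj [3, 5, 4] (a := wd) (b := [0] ++ [1]) (by decide +kernel),
    h.cj [4] (a := wd) (b := [0] ++ [1, 1]) (by decide +kernel), h.cj [4] (a := [0]) (b := [1]) (by decide +kernel)] at h1

theorem pair (a g1 g2 g3 b1 b2 b3 : List ℕ) (e : okW [] wz a = true ∧ cw (g1 ++ b1) = cw (a ++ g1) ∧
    cw (g2 ++ b2) = cw (wz ++ a ++ g2) ∧ cw (g3 ++ b3) = cw (wz ++ a ++ a ++ g3)) :
    162 + 3 * df ρ [a, wz] = df ρ [b1] + df ρ [b2] + df ρ [b3] := by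
  have h1 := wielF (ρ := ρ) two_zero [] wz a e.1
  rw [h.d0, h.d9.1, h.cj g1 e.2.1, h.cj g2 e.2.2.1, h.cj g3 e.2.2.2] at h1
  omega

theorem nine (a b g1 g2 : List ℕ) (e : okW [wz] wd a = true ∧ md [a, a, a] wz [] = true ∧ md [wd ++ a, wd ++ a, wd ++ a] wz [] = true ∧
    md [wd ++ a ++ a, wd ++ a ++ a, wd ++ a ++ a] wz [] = true ∧ cw (b ++ wx) = cw (a ++ b) ∧
    cw (g1 ++ wx) = cw (wd ++ a ++ g1) ∧ cw (g2 ++ (wx ++ wx)) = cw (wd ++ a ++ a ++ g2)) :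
    86 + 3 * df ρ [a, wd, wz] = df ρ [wd, wz] + 3 * df ρ [wx] := by
  obtain ⟨e1, e2, e3, e4, e5, e6, e7⟩ := e
  have h1 := wielF (ρ := ρ) two_zero [wz] wd a e1
  have h2 : df ρ [wx ++ wx] = df ρ [wx] := by
    refine le_antisymm ?_ (df_le [] (by decide +kernel))
    rw [df, ← FW_three]
    exact df_le [] (by decide +kernel)
  rw [h.d9.1, df_pow e2, df_pow e3, df_pow e4, h.cj b e5, h.cj g1 e6, h.cj g2 e7, h2] at h1
  omega

/-- the numbers -/
theorem cases : (df ρ [[0]] = 92 ∧ df ρ [wd] = 134 ∧ df ρ [we, wd, wz] = 48 ∧ df ρ [wr, wd, wz] = 78 ∧ df ρ [wr, we, wd, wz] = 46) ∨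
    (df ρ [[0]] = 134 ∧ df ρ [wd] = 92 ∧ df ρ [we, wd, wz] = 34 ∧ df ρ [wr, wd, wz] = 22 ∧ df ρ [wr, we, wd, wz] = 18) ∨
    (df ρ [[0]] = 80 ∧ df ρ [wd] = 92 ∧ df ρ [we, wd, wz] = 16 ∧ df ρ [wr, wd, wz] = 22 ∧ 8 ≤ df ρ [wr, we, wd, wz]) ∨
    (df ρ [[0]] = 92 ∧ df ρ [wd] = 80 ∧ df ρ [wr, wd, wz] = 6 ∧ df ρ [wr, we, wd, wz] = 4) := by
  have hz := h.d9.1
  have h9 := h.d9.2
  have hc := h.d3 (a := [0]) (by decide +kernel) (by decide +kernel)
  have hd := h.d3 (a := wd) (by decide +kernel) (by decide +kernel)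
  have hp := h.dpar
  have p1 := h.pair wd [] [4, 3] [3] wd wd wd (by decide +kernel)
  have p2 := h.pair we [4, 5] [] [5] wd [0] wz (by decide +kernel)
  have p3 := h.pair (wd ++ we) [5] [4] [4, 5] wd [0] wz (by decide +kernel)
  have p4 := h.pair (wd ++ we ++ we) [3, 4, 5] [5, 4] [3, 5] wz [0] wd (by decide +kernel)
  have p5 := h.pair wr [0, 2, 6] [1, 2, 6] [6, 4] wd wd wd (by decide +kernel)
  have p6 := h.pair (wd ++ wr) [2, 2, 6] [0, 6] [1, 6, 4] wd wd wd (by decide +kernel)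
  have p7 := h.pair (wd ++ wr ++ wr) [2, 6, 4] [2, 3, 6] [1, 1, 6] wd wd wd (by decide +kernel)
  have q1 := wielF (ρ := ρ) two_zero [wz] wd we (by decide +kernel)
  have q2 := wielF (ρ := ρ) two_zero [wz] wd wr (by decide +kernel)
  have q3 := h.nine wx [] [1] [0, 0] (by decide +kernel)
  have q4 := h.nine wy [3] [4] [1, 3] (by decide +kernel)
  have q5 := wielF (ρ := ρ) two_zero [wd, wz] we wr (by decide +kernel)
  have q6 : df ρ [wr, we, wd, wz] ≤ df ρ [wx, wd, wz] := df_le [] (by decide +kernel)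
  have q7 : df ρ [wr, we, wd, wz] ≤ df ρ [wr, wd, wz] := df_le [] (by decide +kernel)
  exact arith hz h9 hc hd hp p1 p2 p3 p4 p5 p6 p7 q1 q2 q3 q4 q5 q6 q7

theorem altE : Alt BF (FW ρ [we, wd, wz]) (R ρ wr) (R ρ wk) (R ρ (wr ++ wk ++ wr ++ wr)) (R ρ (wr ++ wr ++ wk ++ wr)) :=
  ⟨tet_of (by decide +kernel) BF_symm h.inv h.ndE, fun v _ => by rw [R_eq2 (c := []) (by decide +kernel), R_nil],
    fun v _ => R_eq2 (by decide +kernel) v, fun v _ => R_eq2 (by decide +kernel) v⟩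

theorem dA : 3 * df ρ [wr, we, wd, wz] ≤ df ρ [we, wd, wz] + 2 * df ρ [wk, wr, we, wd, wz] := by
  have h1 := h.altE.a4a two_zero
  rwa [← FW_cons, ← FW_cons] at h1

theorem dB : 2 * df ρ [wr, we, wd, wz] ≤ df ρ [wr, wd, wz] + df ρ [[6], wr, we, wd, wz] := by
  have h1 := inf_dim (W := FW ρ [wr, wd, wz]) (U := FW ρ [wr, we, wd, wz]) (U' := FW ρ [[6] ++ we ++ [6, 6, 6], wr, wd, wz])
    (mp_le (by decide +kernel)) (by rw [FW_cons]; exact inf_le_left)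
  have h2 : df ρ [wr, we, wd, wz] ≤ df ρ [[6] ++ we ++ [6, 6, 6], wr, wd, wz] := df_le [6] (by decide +kernel)
  have h3 : FW ρ [wr, we, wd, wz] ⊓ FW ρ [[6] ++ we ++ [6, 6, 6], wr, wd, wz] ≤ FW ρ [[6], wr, we, wd, wz] := by
    rintro v ⟨hv, hv'⟩
    rw [FW_cons]
    refine ⟨hv, mem_fx.2 ?_⟩
    have a1 : R ρ we v = v := hv we (by simp)
    have a2 : R ρ ([6] ++ we ++ [6, 6, 6]) v = v := hv' _ List.mem_cons_self
    rw [R_eq (b := we ++ (we ++ (([6] ++ we ++ [6, 6, 6]) ++ (([6] ++ we ++ [6, 6, 6]) ++ (we ++ we))))) (by decide +kernel),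
      R_app, R_app, R_app, R_app _ (we ++ we), R_app we we, a1, a1, a2, a2, a1, a1]
  have h4 := Submodule.finrank_mono h3
  unfold df at h2 ⊢
  omega

/-- the final count -/
theorem fin : df ρ [wk, wr, we, wd, wz] + df ρ [[6], wr, we, wd, wz] ≤ df ρ [wr, we, wd, wz] := by
  have h1 := inf_dim (W := FW ρ [wr, we, wd, wz]) (U := FW ρ [wk, wr, we, wd, wz]) (U' := FW ρ [[6], wr, we, wd, wz])
    (by rw [FW_cons]; exact inf_le_left) (by rw [FW_cons [6]]; exact inf_le_left)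
  have h2 : FW ρ [wk, wr, we, wd, wz] ⊓ FW ρ [[6], wr, we, wd, wz] = ⊥ := by
    rw [eq_bot_iff]
    rintro v ⟨hv, hv'⟩
    refine h.nf v (fix_all ?_)
    rw [FW_cons]
    exact ⟨hv, mem_fx.2 (hv' _ List.mem_cons_self)⟩
  rw [h2, finrank_bot] at h1
  exact h1

/-- **two cases remain** -/
theorem two : (df ρ [[0]] = 80 ∧ df ρ [wd] = 92 ∧ df ρ [wr, wd, wz] = 22 ∧ 8 ≤ df ρ [wr, we, wd, wz] ∧
      3 * df ρ [wr, we, wd, wz] ≤ 16 + 2 * df ρ [wk, wr, we, wd, wz]) ∨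
    (df ρ [[0]] = 92 ∧ df ρ [wd] = 80 ∧ df ρ [wr, wd, wz] = 6 ∧ df ρ [wr, we, wd, wz] = 4) :=
  arith2 h.cases h.dA h.dB h.fin

theorem trip {a d : ℕ} (ha : df ρ [[0]] = a) (hd : df ρ [wd] = d) : Trip (fun i : Fin 3 => π (W [i])) a d := by
  have e : ∀ (g b c : List ℕ), cw (g ++ c) = cw (b ++ g) → cf (π (W b)) = df ρ [c] := fun g b c e => by
    rw [← h.df1, h.cj g e]
  refine ⟨fun i => ?_, fun i j => ?_, fun i => ?_, fun i j hij => ?_, fun i j hij => ?_⟩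
  · rw [← map_pow, W_cube (by revert i; decide +kernel), map_one]
  · rw [Commute, SemiconjBy, ← map_mul, ← map_mul, W_comm (by revert i j; decide +kernel)]
  · rw [← ha]
    exact e (![[], [4], [5, 4]] i) _ _ (by revert i; decide +kernel)
  · rw [← hd, ← map_mul, ← W_append]
    exact e (![![[], [3, 5, 4], [3, 4]], ![[], [], [3, 4, 3]], ![[], [], []]] i j) _ _ (by revert i j; decide +kernel)
  · rw [← hd, ← map_inv, ← map_mul, W_inv (b := [j, j]) (by clear hij; revert j; decide +kernel), ← W_append]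
    exact e (![![[], [4], [5, 4]], ![[], [], [4, 5, 4]], ![[], [], []]] i j) _ _ (by revert i j; decide +kernel)

end Rep

end Cfsg.Agent.E82.U4
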