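import Cfsg.Agent.E82.U4.Three
import Cfsg.Agent.E82.End
import Cfsg.Agent.E82.Small

/-!
# S3369: the row `U₄(2)` (helper39)
-/

set_option autoImplicit false
set_option linter.unusedSectionVars false
set_option maxRecDepth 100000

namespace Cfsg.Agent.E82.U4

open Module Cfsg Cfsg.Lie Cfsg.Lie.ChevalleyDatum
open Cfsg.Agent.Lib.FieldFour (F4)
open Cfsg.Agent.H180.U42 (GG one)
open Cfsg.Agent.Tits.Roots Cfsg.Agent.Nodes.RGDChev
open Cfsg.Agent.BpExc.FamUntw (phi)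
open Cfsg.Agent.H939.L64 (KK E2 LK aK rE fr frE_rE)
open Cfsg.Agent.H413.L16
open Cfsg.Agent.H876.L64 (two_zero aK_mul aK_inv aK_inv')
open Cfsg.Agent.H259.L34 (dz)
open Cfsg.Agent.H201.L34 (gz Fz)
open Cfsg.Agent.H942.L16 (BF BF_aK BF_symm BF_er_er BF_hr_hr kadd_self)
open Cfsg.Agent.E82.Fr

variable {ζ : KK} {φ : GG →* GK} {π : GG →* E2}

theorem cj_Fz {z : GK} (hz : z⁻¹ * phi chevE8 KK 2 1 z = gz) (g : E2) (v : LK) : aK (cj z g) (Fz v) = Fz (aK (cj z g) v) := by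
  have h1 : ∀ w, aK (cj z g) (aK z⁻¹ w) = aK z⁻¹ (rE g w) := fun w => by
    rw [← aK_inv z w, rE_cj, aK_inv', aK_inv']
  have h2 : ∀ w, fr (rE g w) = rE g (fr w) := frE_rE g
  rw [← aK_inv' z v, ← frob_frame hz, h1, h1, ← frob_frame hz, h2]

theorem Fr1.ace (hζ : IsPrimitiveRoot ζ 3) (h : Fr1 φ ζ) :
    Ac (φ (W we)) (Matrix.diagonal ![ζ, ζ, 1]) (Matrix.diagonal ![ζ * ζ, ζ * ζ, 1]) := by
  have z3 : ζ * (ζ * ζ) = 1 := by rw [← hζ.pow_eq_one]; ring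
  have h1 : ∀ i j, (dz (vc 2188) (vec chevE8 8 (rt i j))).val = ![![1, 0, 1], ![0, 1, 1], ![2, 2, 0]] i j := by decide +kernel
  refine ac_diag (fun i => ?_) (fun i => aK_t_hr (h.te hζ).1 _) fun i j hij => ?_
  · fin_cases i
    exacts [z3, z3, one_mul 1]
  · rw [(h.te hζ).er hζ (rt_lt i j), h1]
    congr 1
    fin_cases i <;> fin_cases j
    exacts [absurd rfl hij, (pow_zero ζ).trans z3.symm, (pow_one ζ).trans (mul_one ζ).symm, (pow_zero ζ).trans z3.symm,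
      absurd rfl hij, (pow_one ζ).trans (mul_one ζ).symm, (pow_two ζ).trans (one_mul _).symm, (pow_two ζ).trans (one_mul _).symm,
      absurd rfl hij]

theorem range_le {U : Submodule KK LK} (h : ∀ p q, bs p q ∈ U) : LinearMap.range Phi ≤ U := by
  rintro _ ⟨X, rfl⟩
  induction X using Matrix.induction_on' with
  | h_zero => rw [map_zero]; exact U.zero_mem
  | h_add X Y hX hY => rw [map_add]; exact U.add_mem hX hY
  | h_std_basis i j x => rw [Phi_single]; exact U.smul_mem _ (h i j)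

theorem dim_four {k V : Type*} [Field k] [AddCommGroup V] [Module k V] [Module.Finite k V] {B : V →ₗ[k] V →ₗ[k] k}
    {U : Submodule k V} {a b c d : V} (hs : ∀ u v, B u v = B v u) (h0 : ∀ u, B u u = 0) (h1 : B a b = 1) (h2 : B c d = 1)
    (h3 : B a c = 0) (h4 : B a d = 0) (h5 : B b c = 0) (h6 : B b d = 0) (ha : a ∈ U) (hb : b ∈ U) (hc : c ∈ U) (hd : d ∈ U) :
    4 ≤ finrank k U := by
  refine dim_dual (B := B) ![a, b, c, d] ![b, a, d, c] (fun i j => ?_) fun i => ?_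
  · fin_cases i <;> fin_cases j
    exacts [(hs _ _).trans h1, h0 _, h5, h6, h0 _, h1, h3, h4, (hs _ _).trans h4, (hs _ _).trans h6, (hs _ _).trans h2, h0 _,
      (hs _ _).trans h3, (hs _ _).trans h5, h0 _, h2]
  · fin_cases i
    exacts [ha, hb, hc, hd]

theorem dim_A0 (hζ : IsPrimitiveRoot ζ 3) (h : Fr1 φ ζ) : 4 ≤ finrank KK ↥(LinearMap.range Phi ⊓ fx (R (aH.comp φ) we)) :=
  dim_four (B := BF) (a := er (rt 0 1)) (b := er (rt 1 0)) (c := hr (rt 0 1)) (d := hr (rt 0 2)) BF_symm BF_self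
    (by rw [BF_er_er (rt_lt _ _) (rt_lt _ _), if_pos (by decide)]) (by rw [BF_hr_hr, cast_odd (by decide +kernel)])
    (BF_er_hr _ (rt_lt _ _)) (BF_er_hr _ (rt_lt _ _)) (BF_er_hr _ (rt_lt _ _)) (BF_er_hr _ (rt_lt _ _))
    ⟨er_mem (by decide), mem_fx.2 ((h.te hζ).fix hζ (rt_lt _ _) (by decide +kernel))⟩
    ⟨er_mem (by decide), mem_fx.2 ((h.te hζ).fix hζ (rt_lt _ _) (by decide +kernel))⟩
    ⟨hr_mem (by decide), mem_fx.2 (aK_t_hr (h.te hζ).1 _)⟩ ⟨hr_mem (by decide), mem_fx.2 (aK_t_hr (h.te hζ).1 _)⟩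

theorem three_core (hζ : IsPrimitiveRoot ζ 3) (h : Fr1 φ ζ) (hR : Rep π (aH.comp φ))
    (hF : ∀ g v, aK (φ g) (Fz v) = Fz (aK (φ g) v)) (hQ : df (aH.comp φ) [wr, wd, wz] = 22)
    (h8 : 8 ≤ df (aH.comp φ) [wr, we, wd, wz])
    (hA : 3 * df (aH.comp φ) [wr, we, wd, wz] ≤ 16 + 2 * df (aH.comp φ) [wk, wr, we, wd, wz]) : False := by
  obtain ⟨a1, a2⟩ := g1 hζ h h8
  obtain ⟨a3, a4⟩ := g2 hζ h hR a2
  obtain ⟨a5, a6⟩ := g4 hζ h a2 a3 a4
  have he := h.ace hζ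
  have b1 : LinearMap.range Phi ≤ FW (aH.comp φ) [wr, wd, wz] := range_le fun p q => by
    have k : ∀ p q, dz (vc 244) (vec chevE8 8 (rt p q)) = 0 ∧ dz (vc 2216) (vec chevE8 8 (rt p q)) = 0 := by decide +kernel
    simp only [mem_FW, List.forall_mem_cons]
    refine ⟨a6 p q, ?_, ?_, fun _ k => absurd k List.not_mem_nil⟩ <;> by_cases e : p = q
    · rw [e, bs_self]; exact aK_t_hr (h.td hζ).1 _
    · rw [bs_of_ne e]; exact (h.td hζ).fix hζ (rt_lt p q) (k p q).1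
    · rw [e, bs_self]; exact aK_t_hr (h.tz hζ).1 _
    · rw [bs_of_ne e]; exact (h.tz hζ).fix hζ (rt_lt p q) (k p q).2
  obtain ⟨A, A', hi⟩ := ac_cent hζ (h.tz hζ) (g := φ (W [6])) (by rw [← map_mul, ← map_mul, W_comm (by decide +kernel)])
  have b2 : ∀ v ∈ LinearMap.range Phi, R (aH.comp φ) [6] v = v := by
    rintro _ ⟨X, rfl⟩
    refine a2_triv hζ hi he (fun Y => ?_) (hF _) ?_ X
    · rw [← R_aH, ← R_aH, R_eq2 (c := [3]) (by decide +kernel), a5 _ (b1 ⟨Y, rfl⟩)]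
    · simp only [← map_mul, ← W_append]
      exact congrArg φ (W_eq (by decide +kernel))
  have b3 : ∀ v ∈ LinearMap.range Phi, R (aH.comp φ) we v ∈ LinearMap.range Phi := by
    rintro _ ⟨X, rfl⟩
    exact ⟨_, (he.2 X).symm⟩
  have d1 := dim_A0 hζ h
  have d2 := dim_Phi
  have hn := nd_Phi
  have d3 := hR.fin
  have hq := hR.quat
  have hQ' := hR.ndQ
  have r2 : ∀ v, R (aH.comp φ) (we ++ [6] ++ we ++ we) v = R (aH.comp φ) we (R (aH.comp φ) [6] (R (aH.comp φ) we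
      (R (aH.comp φ) we v))) := fun v => by rw [R_app, R_app, R_app]
  have r3 : ∀ v, R (aH.comp φ) (we ++ we ++ [6] ++ we) v = R (aH.comp φ) we (R (aH.comp φ) we (R (aH.comp φ) [6]
      (R (aH.comp φ) we v))) := fun v => by rw [R_app, R_app, R_app]
  have e3 : ∀ v, R (aH.comp φ) we (R (aH.comp φ) we (R (aH.comp φ) we v)) = v := fun v => by
    rw [← R_app we we, R_eq2 (c := []) (by decide +kernel), R_nil]
  have e4 : FW (aH.comp φ) [wr, we, wd, wz] = FW (aH.comp φ) [wr, wd, wz] ⊓ fx (R (aH.comp φ) we) := by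
    rw [← FW_cons]
    exact le_antisymm (mp_le (by decide +kernel)) (mp_le (by decide +kernel))
  unfold df at hQ a1 hA d3
  rw [FW_cons [6], e4] at d3
  rw [e4] at a1 hA
  generalize finrank KK (FW (aH.comp φ) [wk, wr, we, wd, wz]) = n at hA d3
  generalize FW (aH.comp φ) [wr, wd, wz] = Q at *
  generalize LinearMap.range Phi = P at *
  generalize R (aH.comp φ) (we ++ [6] ++ we ++ we) = j at *
  generalize R (aH.comp φ) (we ++ we ++ [6] ++ we) = l at *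
  generalize R (aH.comp φ) we = e at *
  generalize R (aH.comp φ) [6] = i at *
  generalize R (aH.comp φ) [3] = t at *
  have se : ∀ v ∈ Q ⊓ perp BF P, e v ∈ Q ⊓ perp BF P := fun v hv' => ⟨hq.se v hv'.1, mem_perp.2 fun y hy => by
    rw [← e3 y, hq.be]
    exact mem_perp.1 hv'.2 _ (b3 _ (b3 y hy))⟩
  have si : ∀ v ∈ Q ⊓ perp BF P, i v ∈ Q ⊓ perp BF P := fun v hv' => ⟨hq.si v hv'.1, mem_perp.2 fun y hy => by
    rw [← b2 y hy, hq.bi]
    exact mem_perp.1 hv'.2 y hy⟩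
  have alt : Alt BF (Q ⊓ perp BF P) e i j l :=
    ⟨hq.toTet.sub inf_le_left (hQ'.perp hn b1) se si (fun v hv' => by rw [r2]; exact se _ (si _ (se _ (se v hv'))))
      (fun v hv' => by rw [r3]; exact se _ (se _ (si _ (se v hv')))), fun v hv' => by rw [hq.ii, a5 v hv'.1],
      fun v _ => hq.ij v, fun v hv' => by rw [hq.ji, a5 _ (hq.sl v hv'.1)]⟩
  have d4 := orth_dim hQ' (inf_le_left : Q ⊓ perp BF P ≤ Q) b1 fun u hu y hy => mem_perp.1 hu.2 y hy
  have d5 := dim_perp (B := BF) (Q ⊓ fx e) (P ⊓ fx e)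
  have d6 := Submodule.finrank_mono (show Q ⊓ fx e ⊓ perp BF (P ⊓ fx e) ≤ Q ⊓ perp BF P ⊓ fx e from by
    rintro v ⟨⟨k1, k2⟩, k3⟩
    refine ⟨⟨k1, mem_perp.2 fun y hy => ?_⟩, k2⟩
    have k4 : ∀ x, BF v (e x) = BF v x := fun x => by conv_lhs => rw [← mem_fx.1 k2, hq.be]
    have k5 := mem_perp.1 k3 (y + e y + e (e y)) ⟨P.add_mem (P.add_mem hy (b3 y hy)) (b3 _ (b3 y hy)), mem_fx.2 (by
      rw [map_add, map_add, e3]
      abel)⟩
    rwa [map_add, map_add, k4 (e y), k4 y, kadd_self, zero_add] at k5)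
  have hle : P ⊓ fx e ≤ Q ⊓ fx e ⊓ fx i := fun v hv' => ⟨⟨b1 hv'.1, hv'.2⟩, mem_fx.2 (b2 v hv'.1)⟩
  have d7 := Submodule.finrank_mono hle
  by_cases h0 : Q ⊓ perp BF P ⊓ fx e ⊓ fx i = ⊥
  · have d8 := alt.a4b two_zero h0
    omega
  · obtain ⟨w, ⟨⟨⟨w1, w2⟩, w3⟩, w4⟩, w0⟩ := Submodule.exists_mem_ne_zero_of_ne_bot h0
    have d8 := Submodule.finrank_lt_finrank_of_lt (lt_of_le_of_ne hle fun k => w0 (by
      have k1 : w ∈ P ⊓ fx e := k ▸ ⟨⟨w1, w3⟩, w4⟩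
      exact hn w k1.1 (mem_perp.1 w2)))
    omega

/-- **the case `(80, 92)`** -/
theorem three (hinj : Function.Injective π) (h0 : ¬ Fixd π) (hT : Trip (fun i : Fin 3 => π (W [i])) 80 92) : False := by
  have e : ∀ a b : List ℕ, cw ([3, 4, 3, 5, 4, 3] ++ a) = cw (b ++ [3, 4, 3, 5, 4, 3]) →
      π (W [3, 4, 3, 5, 4, 3]) * π (W a) * (π (W [3, 4, 3, 5, 4, 3]))⁻¹ = π (W b) := fun a b k => by
    rw [← map_inv, ← map_mul, ← map_mul, W_conj k]
  obtain ⟨ζ, z, hζ, h1, hz⟩ := frame1 hT (g := π (W [3, 4, 3, 5, 4, 3])) (Or.inr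
    ⟨(e [0] [0, 0] (by decide +kernel)).trans (by rw [← map_inv]; exact congrArg π (W_inv (by decide +kernel)).symm),
      (e [1] [1, 1] (by decide +kernel)).trans (by rw [← map_inv]; exact congrArg π (W_inv (by decide +kernel)).symm),
      e [2] [2] (by decide +kernel)⟩)
  have h := rep_rz hinj h0 z
  have hC : df (rz π z) [[0]] = 80 := (h.df1 _).trans (hT.one 0)
  rcases h.two with k | k
  · exact three_core (φ := fz π z) hζ (fun i => One.tv (h1 i)) h (fun g => cj_Fz hz _) k.2.2.1 k.2.2.2.1 k.2.2.2.2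
  · exact absurd (hC.symm.trans k.1) (by norm_num)

theorem fixd_GG (hinj : Function.Injective π) : Fixd π := by
  by_contra h0
  have h := rep_rz hinj h0 1
  rcases h.two with k | k
  · exact three hinj h0 (h.trip k.1 k.2.1)
  · exact nine hinj h0 (h.trip k.1 k.2.1)

/-- **the row `U₄(2)`** -/
theorem rowU42 : ROW (U42 F4) := by
  intro f H hS
  obtain ⟨v, hv', h⟩ := fixd_GG (π := f.comp (QuotientGroup.mk' _)) (hS.inj.comp mk_inj)
  refine hS.end_fix (small_U42 rfl) (out2_U42 rfl) ⟨v, hv', fun s => ?_⟩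
  obtain ⟨g, rfl⟩ := QuotientGroup.mk_surjective s
  exact h g

end Cfsg.Agent.E82.U4
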